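import Cfsg.Agent.Lib.F2C.TI
import Cfsg.Agent.S0028

set_option autoImplicit false
set_option linter.unusedSectionVars false

namespace H33.F2C

universe u

variable {G : Type*} [Group G] [Finite G]

variable {p : ℕ} {X : Set (Subgroup G)}

namespace AL1

theorem ne_of_le {A B : Subgroup G} (h : A ≤ B) (n : A ≠ ⊥) : B ≠ ⊥ := fun e => n (le_bot_iff.1 (e ▸ h))

theorem ce_anti {A B : Subgroup G} (h : A ≤ B) : Ce B ≤ Ce A := Subgroup.centralizer_le h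

theorem le_cg {A : Subgroup G} {a : G} (h : a ∈ Ce A) : A ≤ Cg a := fun x hx =>
  Subgroup.mem_centralizer_singleton_iff.2 (h x hx)

theorem hitm {P L T : Subgroup G} (hP : Nat.card P = p) (hL : Mem p P L) (hT : P ≤ Nm T) :
    Mem p P ⁅L ⊓ T, P⁆ ∧ ⁅L ⊓ T, P⁆ ≤ L ⊓ T :=
  have n : P ≤ Nm (L ⊓ T) := fun _ hg => nm_inf (hL.nrm hg) (hT hg)
  ⟨mem_comm hP (nil_le inf_le_left hL.nil) (cop_le inf_le_left hL.cop) n, comm_le_left n⟩

theorem core (al : Al p X) {P K : Subgroup G} (hP : P ∈ X) (hK : Mem p P K) (hne : K ≠ ⊥) :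
    ∃ L, Mem p P L ∧ Nm P ≤ Nm L ∧ ∀ Q, Mem p P Q → K ≤ Q → Q ≤ L := by
  have hy := al.hy
  obtain ⟨r, hr, n⟩ := ex_prime hK.nil hne
  have mK := mem_os hr hK
  obtain ⟨U, hU, KU⟩ := mx_ex mK (os_p hr K) n
  refine ⟨_, hy.mem_w hP hU.mem.nrm, fun g hg => nm_w (nm_nm (hy.mx_inv al.odd hr hP hU hg)) hg,
    fun Q hQ KQ => hy.mem_le_w (hy.nm_ne hU.ne hU.mem.nil) hP hU.mem.nrm hQ fun g hg => ?_⟩
  have KQ' := (os_le r K).trans KQ
  have h1 := hy.mx_ti al.odd hr hP hU (mem_os hr hQ) (os_p hr Q)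
    (ne_of_le (le_inf (le_os_nil hr hQ.nil KQ' (os_p hr K)) KU) n)
  have mQ := mem_oq hr hQ
  obtain ⟨mZ, lZ⟩ := hitm (hy.card P hP) hU.mem (hU.mem.nrm.trans (nm_le_nm_ce U))
  have nZ : ⁅U ⊓ Ce U, P⁆ ≠ ⊥ := fun e => al.al P hP r hr U hU (comm_bot.1 e)
  have h2 := hy.mem_comm2 hr (hy.nm_ne n mK.nil) hP mK.nrm hP mK.nrm mZ mQ
    ((lZ.trans inf_le_right).trans ((ce_anti KU).trans (ce_le_nm _)))
    ((ce_symm (comm_nil' hr hQ.nil KQ' (oq_le r Q) (os_p hr K) (oq_cop r Q))).trans (ce_le_nm _))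
    (hU.grp.to_le (lZ.trans inf_le_left)) (oq_cop r Q)
  have h3 := hy.mem_comm2 hr (hy.nm_ne nZ mZ.nil) hP mZ.nrm hP mZ.nrm hU.mem mQ
    ((ce_symm (lZ.trans inf_le_right)).trans (ce_le_nm _)) ((ce_symm h2).trans (ce_le_nm _))
    hU.grp (oq_cop r Q)
  obtain ⟨a, ha, b, hb, rfl, -⟩ := split hr hQ.nil hg
  exact mul_mem (Subgroup.le_normalizer (h1 ha)) (ce_le_nm _ (ce_symm h3 hb))

end AL1

open AL1

theorem Al.ln_ti (al : Al p X) {P L Q K : Subgroup G} (hP : P ∈ X) (hL : Ln p P L) (hQ : Mem p P Q)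
    (hK : Mem p P K) (hne : K ≠ ⊥) (h1 : K ≤ Q) (h2 : K ≤ L) : Q ≤ L := by
  obtain ⟨L₀, m, -, k⟩ := core al hP hK hne
  exact hL.max L₀ m (k L hL.mem h2) ▸ k Q hQ h1

theorem Al.ln_eq (al : Al p X) {P L L' K : Subgroup G} (hP : P ∈ X) (hL : Ln p P L) (hL' : Ln p P L')
    (hK : Mem p P K) (hne : K ≠ ⊥) (h1 : K ≤ L) (h2 : K ≤ L') : L = L' :=
  le_antisymm (al.ln_ti hP hL' hL.mem hK hne h1 h2) (al.ln_ti hP hL hL'.mem hK hne h2 h1)

theorem Al.ln_inv (al : Al p X) {P L : Subgroup G} (hP : P ∈ X) (hL : Ln p P L) : Nm P ≤ Nm L := by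
  obtain ⟨L₀, m, k, k'⟩ := core al hP hL.mem hL.ne
  exact hL.max L₀ m (k' L hL.mem le_rfl) ▸ k

theorem Al.ln_nm (al : Al p X) {P L Q : Subgroup G} (hP : P ∈ X) (hL : Ln p P L) (hQ : Mem p P Q)
    (h : Q ≤ Nm L) : Q ≤ L := by
  have n := al.hy.nm_ne hL.ne hL.mem.nil
  exact (al.hy.mem_le_w n hP hL.mem.nrm hQ h).trans (hL.max _ (al.hy.mem_w hP hL.mem.nrm)
    (al.hy.mem_le_w n hP hL.mem.nrm hL.mem Subgroup.le_normalizer)).le

theorem Al.two_ln (al : Al p X) {P : Subgroup G} (hP : P ∈ X) :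
    ∃ L L', Ln p P L ∧ Ln p P L' ∧ L ≠ L' := by
  by_contra n
  refine al.nmc P hP ?_
  by_cases e : ∃ L, Ln p P L
  · obtain ⟨L, hL⟩ := e
    refine ⟨Nm L, al.hy.nm_ne hL.ne hL.mem.nil, hL.mem.nrm, fun Q hQ => ?_⟩
    by_cases q : Q = ⊥
    · exact q ▸ bot_le
    obtain ⟨L', hL', l⟩ := ln_ex hQ q
    obtain rfl : L = L' := by_contra fun k => n ⟨L, L', hL, hL', k⟩
    exact l.trans Subgroup.le_normalizer
  · refine ⟨P, al.hy.pt_top hP, le_rfl, fun Q hQ => ?_⟩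
    by_cases q : Q = ⊥
    · exact q ▸ bot_le
    exact absurd ((ln_ex hQ q).imp fun _ h => h.1) e

theorem AL1.meet (al : Al p X) {P L L' M : Subgroup G} (hP : P ∈ X) (hL : Ln p P L) (hL' : Ln p P L')
    (hM : M ≠ ⊤) (hPM : P ≤ M) (h : ⁅L ⊓ M, P⁆ ≠ ⊥) (h' : ⁅L' ⊓ M, P⁆ ≠ ⊥) : L = L' := by
  have c := al.hy.card P hP
  obtain ⟨m, l⟩ := hitm c hL.mem (hPM.trans Subgroup.le_normalizer)
  obtain ⟨m', l'⟩ := hitm c hL'.mem (hPM.trans Subgroup.le_normalizer)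
  exact al.ln_eq hP hL hL' m' h' ((al.hy.mem_le_w hM hP hPM m' (l'.trans inf_le_right)).trans
    (al.ln_ti hP hL (al.hy.mem_w hP hPM) m h (al.hy.mem_le_w hM hP hPM m (l.trans inf_le_right))
      (l.trans inf_le_left))) (l'.trans inf_le_left)

theorem Al.hit_uniq (al : Al p X) {P L L' : Subgroup G} (hP : P ∈ X) (hL : Ln p P L) (hL' : Ln p P L')
    {a : G} (ha : a ≠ 1) (hc : a ∈ Ce P) (h : Hit P L a) (h' : Hit P L' a) : L = L' :=
  meet al hP hL hL' (al.hy.cg_ne ha) (le_cg hc) h h'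

theorem hit_ex (hp : p.Prime) {P V E : Subgroup G} (hV : Mem p P V) (hne : V ≠ ⊥) (hE : E ≤ Ce E)
    (hcyc : ¬ IsCyclic E) (hEp : IsPGroup p E) (hn : E ≤ Nm V) : ∃ e ∈ E, e ≠ 1 ∧ Hit P V e := by
  have : Fact p.Prime := ⟨hp⟩
  obtain ⟨k, hk⟩ := IsPGroup.iff_card.1 hEp
  by_contra n
  exact hne (mem_bot_of_ce hV (gen58 hE hcyc hn (hk ▸ (Nat.Coprime.pow_right k hV.cop).symm)
    fun e he e1 => comm_bot.1 (by_contra fun l => n ⟨e, he, e1, l⟩)))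

/-- a point has no nontrivial member centralising a commuting point -/
theorem Al.y_bot (al : Al p X) {P P' Q : Subgroup G} (hP : P ∈ X) (hP' : P' ∈ X) (hc : P' ≤ Ce P)
    (hQ : Mem p P' Q) (h : Q ≤ Ce P) : Q = ⊥ := by
  have hy := al.hy
  by_contra q
  obtain ⟨s, hs, n⟩ := ex_prime hQ.nil q
  have : Fact s.Prime := ⟨hs⟩
  have mY := mem_os hs hQ
  have YP := (os_le s Q).trans h
  have key : ∀ L, Ln p P L → ⁅L ⊓ Ce (Os s Q), P⁆ ≠ ⊥ := fun L hL e => by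
    have e' := comm_bot.1 e
    have CL := (ce_le_nm P).trans (al.ln_inv hP hL)
    have mL := mem_os hs hL.mem
    have b := mem_bot_of_ce mL (ce_symm (Cfsg.Agent.S0028.result s _ P (Os s L) (os_p hs Q)
      (hy.card P hP ▸ (Nat.coprime_primes hy.pr hs).2 (mem_ne_p hy.pr mY (os_p hs Q) n).symm) (os_p hs L)
      YP (YP.trans (CL.trans (nm_os s L))) mL.nrm ((inf_le_inf_right _ (os_le s L)).trans e')))
    have c : L ≤ Oq s L := fun g hg => by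
      obtain ⟨a, ha, d, hd, rfl, -⟩ := split hs hL.mem.nil hg
      rwa [show a = 1 from Subgroup.mem_bot.1 (b ▸ ha), one_mul]
    exact hL.ne (mem_bot_of_ce hL.mem ((le_inf le_rfl (ce_symm (hy.mem_comm2 hs (hy.nm_ne hL.ne hL.mem.nil)
      hP' (hc.trans CL) hP hL.mem.nrm mY hL.mem (YP.trans CL) Subgroup.le_normalizer (os_p hs Q)
      (cop_le c (oq_cop s L))))).trans e'))
  obtain ⟨L, L', hL, hL', k⟩ := al.two_ln hP
  exact k (meet al hP hL hL' (hy.ce_ne n) (ce_symm YP) (key L hL) (key L' hL'))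

theorem AL1.nohit (al : Al p X) {P P' L : Subgroup G} (hP : P ∈ X) (hP' : P' ∈ X) (hc : P' ≤ Ce P)
    (hL : Mem p P L) : ⁅L ⊓ Ce P', P⁆ = ⊥ :=
  have m := hitm (al.hy.card P hP) hL ((ce_symm hc).trans Subgroup.le_normalizer)
  al.y_bot hP' hP (ce_symm hc) m.1 (m.2.trans inf_le_right)

theorem AL1.mem_of (al : Al p X) {P P' L : Subgroup G} (hP : P ∈ X) (hP' : P' ∈ X) (hc : P' ≤ Ce P)
    (hL : Ln p P L) : Mem p P' L := by
  have n := hc.trans ((ce_le_nm P).trans (al.ln_inv hP hL))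
  refine ⟨hL.mem.nil, hL.mem.cop, n, le_antisymm (comm_le_left n) (hL.mem.com.ge.trans ?_)⟩
  refine Subgroup.commutator_le.2 fun l hl a ha => ?_
  obtain ⟨e, he, c, hc', rfl⟩ := dec hL.mem.nil n (al.hy.card P' hP' ▸ hL.mem.cop.symm) hl
  have k : a * c = c * a := comm_bot.1 (nohit al hP hP' hc hL.mem) hc' a ha
  have := comm_le_left (fun g hg => nm_comm (hL.mem.nrm hg) (ce_le_nm _ (ce_symm hc hg)))
    (Subgroup.commutator_mem_commutator he ha)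
  rwa [commutatorElement_def, mul_assoc e, ← k, mul_inv_rev, ← mul_assoc, ← mul_assoc,
    mul_inv_cancel_right]

theorem Al.same_ln (al : Al p X) {P P' L : Subgroup G} (hP : P ∈ X) (hP' : P' ∈ X) (hc : P' ≤ Ce P)
    (hL : Ln p P L) : Ln p P' L := by
  obtain ⟨L', hL', l⟩ := ln_ex (mem_of al hP hP' hc hL) hL.ne
  exact hL.max L' (mem_of al hP' hP (ce_symm hc) hL') l ▸ hL'

end H33.F2C
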