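import Cfsg.Agent.Lib.F2C.AL1

set_option autoImplicit false
set_option linter.unusedSectionVars false

namespace H33.F2C

universe u

variable {G : Type*} [Group G] [Finite G]

variable {p : ℕ} {X : Set (Subgroup G)}

open AL1 Subgroup

theorem Al.three (al : Al p X) {P P' P₃ : Subgroup G} (hP : P ∈ X) (hP' : P' ∈ X) (h3 : P₃ ∈ X)
    (hne : P' ≠ P) (c1 : P' ≤ Ce P) (c2 : P₃ ≤ Ce P) (c3 : P₃ ≤ Ce P') : P₃ ≤ P ⊔ P' := by
  have hy := al.hy
  have hp := hy.pr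
  by_contra n
  obtain ⟨-, A1, A2, A3, A4⟩ := sup_pp hp (hy.card P hP) (hy.card P' hP') hne c1
  obtain ⟨-, E1, E2, E3, E4⟩ := sup_pp hp (hy.card P' hP') (hy.card P₃ h3)
    (fun e => n (e ▸ le_sup_right)) c3
  obtain ⟨L, L', hL, hL', k⟩ := al.two_ln hP
  have CL := (ce_le_nm P).trans (al.ln_inv hP hL)
  have AC : P ⊔ P' ≤ Ce P := sup_le (hy.pt_ce hP) c1
  have EC : P' ⊔ P₃ ≤ Ce P := sup_le c1 c2
  obtain ⟨e, he, e1, hit⟩ := hit_ex hp hL.mem hL.ne E1 E2 E3 (EC.trans CL)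
  have eA : e ∉ P ⊔ P' := fun l => by
    obtain ⟨a, ha, b, hb, rfl⟩ := (mem_sup_nm (c3.trans (ce_le_nm _))).1 he
    by_cases b1 : b = 1
    · rw [b1, mul_one] at hit e1
      refine hit ?_
      rw [cg_eq_ce, eq_of_card hp (hy.card P' hP') (zpowers_le.2 ha) (mt zpowers_eq_bot.1 e1)]
      exact nohit al hP hP' c1 hL.mem
    · exact n (eq_of_card hp (hy.card P₃ h3) (zpowers_le.2 hb) (mt zpowers_eq_bot.1 b1) ▸
        zpowers_le.2 ((mul_mem_cancel_left (mem_sup_right ha)).1 l))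
  have Ae : P ⊔ P' ≤ Cg e := sup_le (le_cg (EC he)) (le_cg (ce_anti le_sup_left (E1 he)))
  obtain ⟨m, l⟩ := hitm (hy.card P hP) hL.mem ((le_cg (EC he)).trans le_normalizer)
  obtain ⟨a, ha, a1, hit'⟩ := hit_ex hp m hit A1 A2 A3 fun g hg =>
    nm_comm (nm_inf (CL (AC hg)) (le_normalizer (Ae hg))) (ce_le_nm _ (AC hg))
  obtain ⟨-, H1, H2, H3, -⟩ := sup_pp hp (E4 e he e1) (A4 a ha a1)
    (fun q => eA (zpowers_le.2 ha (q ▸ mem_zpowers e))) (zpowers_le.2 (cg_eq_ce e ▸ Ae ha))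
  have HC : zpowers e ⊔ zpowers a ≤ Ce P := sup_le (zpowers_le.2 (EC he)) (zpowers_le.2 (AC ha))
  obtain ⟨h, hh, h1, hit''⟩ := hit_ex hp hL'.mem hL'.ne H1 H2 H3
    (HC.trans ((ce_le_nm P).trans (al.ln_inv hP hL')))
  have q : ⁅L ⊓ Cg e, P⁆ ⊓ Cg a ≤ L ⊓ Cg h := fun x hx => by
    have c : ∀ {u v : G}, u ∈ Cg v → v ∈ Cg u := fun k =>
      mem_centralizer_singleton_iff.2 (mem_centralizer_singleton_iff.1 k).symm
    exact ⟨(l hx.1).1, c (sup_le (zpowers_le.2 (c (l hx.1).2)) (zpowers_le.2 (c hx.2)) hh)⟩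
  exact k (al.hit_uniq hP hL hL' h1 (HC hh) (ne_of_le (commutator_mono q le_rfl) hit') hit'')

theorem Al.cnt2 (al : Al p X) {P P' : Subgroup G} (hP : P ∈ X) (hP' : P' ∈ X) (hne : P' ≠ P)
    (c1 : P' ≤ Ce P) (T₁ T₂ : Finset (Subgroup G)) (h1 : ∀ H ∈ T₁, H ∈ X ∧ H ≤ P ⊔ P')
    (h2 : ∀ L ∈ T₂, Ln p P L) : T₁.card + T₂.card ≤ p + 1 := by
  classical
  have hy := al.hy
  obtain ⟨A0, A1, A2, A3, A4⟩ := sup_pp hy.pr (hy.card P hP) (hy.card P' hP') hne c1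
  have AC : P ⊔ P' ≤ Ce P := sup_le (hy.pt_ce hP) c1
  have : ∀ L, Ln p P L → ∃ a ∈ P ⊔ P', a ≠ 1 ∧ Hit P L a := fun L hL =>
    hit_ex hy.pr hL.mem hL.ne A1 A2 A3 (AC.trans ((ce_le_nm P).trans (al.ln_inv hP hL)))
  choose! f fA f1 fH using this
  have := cnt hy.pr A0 (T₁ ∪ T₂.image fun L => zpowers (f L)) fun H hH => by
    rcases Finset.mem_union.1 hH with k | k
    · exact ⟨(h1 H k).2, hy.card H (h1 H k).1⟩
    · obtain ⟨L, hL, rfl⟩ := Finset.mem_image.1 k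
      exact ⟨zpowers_le.2 (fA L (h2 L hL)), A4 _ (fA L (h2 L hL)) (f1 L (h2 L hL))⟩
  rwa [Finset.card_union_of_disjoint (Finset.disjoint_left.2 fun H k k' => ?_),
    Finset.card_image_of_injOn fun L hL L' hL' e => ?_] at this
  · refine al.hit_uniq hP (h2 L hL) (h2 L' hL') (f1 L (h2 L hL)) (AC (fA L (h2 L hL))) (fH L (h2 L hL)) ?_
    have := fH L' (h2 L' hL')
    change ⁅L' ⊓ Cg _, P⁆ ≠ ⊥ at this ⊢
    rwa [cg_eq_ce, show zpowers (f L) = zpowers (f L') from e, ← cg_eq_ce]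
  · obtain ⟨L, hL, rfl⟩ := Finset.mem_image.1 k'
    refine fH L (h2 L hL) ?_
    rw [cg_eq_ce]
    exact nohit al hP (h1 _ k).1 ((h1 _ k).2.trans AC) (h2 L hL).mem

theorem Al.cent (al : Al p X) {P S : Subgroup G} (hP : P ∈ X) (hS : IsPGroup p S) (h : P ≤ S) :
    S ≤ Ce P := by
  classical
  have hy := al.hy
  have hp := hy.pr
  have : Fact p.Prime := ⟨hp⟩
  refine cent_of_card hp hS (hy.card P hP) (climb hp hS fun n hn k => by_contra fun l => ?_)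
  have e : ∀ i : ℕ, cj (n ^ i) (S ⊓ Nm P) = S ⊓ Nm P := fun i => cj_eq_iff.2 (pow_mem k i)
  have c : ∀ i j : ℕ, cj (n ^ i) P ≤ Ce (cj (n ^ j) P) := fun i j => by
    refine ((cj_mono _ (le_inf h le_normalizer)).trans ((e i).trans (e j).symm).le).trans ?_
    rw [← cj_ce]
    exact cj_mono _ (cent_of_card hp (hS.to_le inf_le_left) (hy.card P hP) inf_le_right)
  have c0 : ∀ i : ℕ, cj (n ^ i) P ≤ Ce P := fun i => by simpa only [pow_zero, cj_one] using c i 0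
  have ne : cj (n ^ 1) P ≠ P := fun q => l (pow_one n ▸ cj_eq_iff.1 q)
  obtain ⟨L, L', hL, hL', q⟩ := al.two_ln hP
  have := al.cnt2 hP (hy.conj P hP _) ne (c0 1) ((Finset.range p).image fun i => cj (n ^ i) P) {L, L'}
    (fun H hH => by
      obtain ⟨i, -, rfl⟩ := Finset.mem_image.1 hH
      exact ⟨hy.conj P hP _, al.three hP (hy.conj P hP _) (hy.conj P hP _) ne (c0 1) (c0 i) (c i 1)⟩)
    fun H hH => by
      rcases Finset.mem_insert.1 hH with rfl | k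
      exacts [hL, Finset.mem_singleton.1 k ▸ hL']
  obtain ⟨m, hm⟩ := IsPGroup.iff_orderOf.1 hS ⟨n, hn⟩
  rw [orderOf_mk] at hm
  have d : ∀ i j : ℕ, i < j → j < p → cj (n ^ i) P ≠ cj (n ^ j) P := fun i j ij jp q => by
    obtain ⟨d, rfl⟩ := Nat.exists_eq_add_of_lt ij
    rw [add_assoc, pow_add, cj_mul, cj_inj] at q
    refine l (zpowers_le.2 (cj_eq_iff.1 q.symm) (mem_zpowers_pow_iff.2 ?_))
    rw [hm]
    exact Nat.Coprime.pow_right m (Nat.coprime_of_lt_prime (by omega) (by omega) hp).symm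
  rw [Finset.card_pair q, Finset.card_image_of_injOn fun i hi j hj q => ?_, Finset.card_range] at this
  · omega
  · rcases lt_trichotomy i j with r | r | r
    exacts [absurd q (d i j r (Finset.mem_range.1 hj)), r, absurd q.symm (d j i r (Finset.mem_range.1 hi))]

end H33.F2C
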