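import Cfsg.Agent.Lib.F2C.TI

set_option autoImplicit false
set_option linter.unusedSectionVars false

namespace H33.F2C

universe u

variable {G : Type*} [Group G] [Finite G]

variable {p : ℕ} {X : Set (Subgroup G)}

open Subgroup

namespace BE1

theorem uniq (hy : Hy p X) (h2 : p ≠ 2) {r : ℕ} (hr : r.Prime) {P U : Subgroup G} (hP : P ∈ X)
    (hU : Mx p r P U) (hb : U ⊓ Ce U ≤ Ce P) {Q : Subgroup G} (hQ : Mem p P Q)
    (hr' : IsPGroup r Q) : Q ≤ U :=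
  hy.mx_uniq h2 hr hP hU (fun e => center_ne hU.mem.nil hU.ne (le_bot_iff.1 (e ▸
    (le_inf inf_le_left hb).trans (hy.key h2 hr hP hU.mem hU.grp)))) hQ hr'

theorem le_cg {A : Subgroup G} {a : G} (h : a ∈ Ce A) : A ≤ Cg a := fun x hx =>
  mem_centralizer_singleton_iff.2 (h x hx)

theorem mc (hy : Hy p X) (h2 : p ≠ 2) {r : ℕ} (hr : r.Prime) {P U : Subgroup G} (hP : P ∈ X)
    (hU : Mx p r P U) (hb : U ⊓ Ce U ≤ Ce P) {E : Subgroup G} (e1 : E ≤ Ce U) (e2 : E ≤ Ce P)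
    (e3 : E ≤ Ce E) (e4 : ¬ IsCyclic E) (e5 : IsPGroup r E) : MC p P := by
  refine mc_of_mx (hy.nm_ne hU.ne hU.mem.nil) hU.mem.nrm fun s hs V hV => ?_
  by_cases rs : r = s
  · subst rs
    exact (uniq hy h2 hr hP hU hb hV.mem hV.grp).trans le_normalizer
  have : Fact s.Prime := ⟨hs⟩
  obtain ⟨k, hk⟩ := IsPGroup.iff_card.1 hV.grp
  refine gen58 e3 e4 (e2.trans ((ce_le_nm P).trans (hy.mx_inv h2 hs hP hV)))
    (hk ▸ Nat.Coprime.pow_right k (cop_of_p hr hs rs e5)) fun e he n => ?_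
  have pe := le_cg (e2 he)
  have a1 : Group.IsNilpotent ↥(V ⊓ Cg e) := nil_le inf_le_left hV.mem.nil
  have a2 : Cop p (V ⊓ Cg e) := cop_le inf_le_left hV.mem.cop
  have a3 : P ≤ Nm (V ⊓ Cg e) := fun g hg => nm_inf (hV.mem.nrm hg) (le_normalizer (pe hg))
  exact le_nm (hy.card P hP) a1 a2 a3 ((hy.mem_comm2 hs (hy.cg_ne n) hP pe hP pe
    (mem_comm (hy.card P hP) a1 a2 a3) hU.mem ((comm_le_left a3).trans inf_le_right) (le_cg (e1 he))
    (hV.grp.to_le ((comm_le_left a3).trans inf_le_left)) (cop_of_p hr hs rs hU.grp)).trans (ce_le_nm U))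
    ((ce_le_nm P).trans (hy.mx_inv h2 hr hP hU))

theorem le_cj {g : G} {A B : Subgroup G} (h : cj g⁻¹ A ≤ B) : A ≤ cj g B := by
  simpa only [cj_cj_inv] using cj_mono g h

theorem le_cj' {g : G} {A B : Subgroup G} (h : cj g A ≤ B) : A ≤ cj g⁻¹ B := by
  simpa only [cj_inv_cj] using cj_mono g⁻¹ h

end BE1

open BE1

theorem Hy.beta_uniq (hy : Hy p X) (h2 : p ≠ 2) {r : ℕ} (hr : r.Prime) {P U : Subgroup G} (hP : P ∈ X)
    (hU : Mx p r P U) (hb : U ⊓ Ce U ≤ Ce P) (g : G) {Q : Subgroup G} (hQ : Mem p (cj g P) Q)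
    (hr' : IsPGroup r Q) : Q ≤ cj g U :=
  le_cj (uniq hy h2 hr hP hU hb (cj_inv_cj g P ▸ hQ.conj g⁻¹) (p_cj _ hr'))

theorem Hy.beta_z (hy : Hy p X) (h2 : p ≠ 2) {r : ℕ} (hr : r.Prime) {P U : Subgroup G} (hP : P ∈ X)
    (hU : Mx p r P U) (hb : U ⊓ Ce U ≤ Ce P) (hn : ¬ MC p P) :
    ∃ z : G, z ≠ 1 ∧ z ^ r = 1 ∧ z ∈ U ⊓ Ce U ∧ ∀ b ∈ U, ∀ P₂ ∈ X, ∀ S : Subgroup G, IsPGroup p S →
      cj b P ≤ S → P₂ ≤ S → z ∈ Ce P₂ := by
  have : Fact r.Prime := ⟨hr⟩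
  have cP := hy.card P hP
  obtain ⟨k, hk⟩ := IsPGroup.iff_card.1 (hU.grp.to_le (inf_le_left : U ⊓ Ce U ≤ U))
  obtain ⟨⟨z, hz⟩, oz⟩ := exists_prime_orderOf_dvd_card' (G := ↥(U ⊓ Ce U)) r (hk ▸ dvd_pow_self r fun e =>
    center_ne hU.mem.nil hU.ne (card_eq_one.1 (by rw [hk, e, pow_zero])))
  rw [orderOf_mk] at oz
  have z1 : z ≠ 1 := fun e => hr.one_lt.ne (by rw [← oz, e, orderOf_one])
  refine ⟨z, z1, oz ▸ pow_orderOf_eq_one z, hz, fun b hb' P₂ hP₂ S hS s1 s2 => ?_⟩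
  refine zpowers_le.1 ?_
  have cZ : Nat.card (zpowers z) = r := (Nat.card_zpowers z).trans oz
  have lZ := zpowers_le.2 hz
  have nZ : zpowers z ≠ ⊥ := mt zpowers_eq_bot.1 z1
  generalize zpowers z = Z at cZ lZ nZ
  have ZU := lZ.trans inf_le_left
  have pZ := hU.grp.to_le ZU
  have UZ : U ≤ Ce Z := ce_symm (lZ.trans inf_le_right)
  have CU := (ce_le_nm P).trans (hy.mx_inv h2 hr hP hU)
  have uq : ∀ g, cj g Z ≤ Ce U → cj g Z ≤ Ce P → cj g Z = Z := fun g a1 a2 => by_contra fun n => by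
    obtain ⟨-, e3, e4, e5, -⟩ := sup_pp hr cZ ((card_cj g Z).trans cZ) n (a1.trans (centralizer_le ZU))
    exact hn (mc hy h2 hr hP hU hb (sup_le (lZ.trans inf_le_right) a1) (sup_le (lZ.trans hb) a2) e3 e4 e5)
  have NZ : Nm U ≤ Nm Z := fun g hg => by
    have := (cj_mono g lZ).trans (cj_eq_iff.2 (nm_inf hg (nm_le_nm_ce U hg))).le
    exact cj_eq_iff.1 (uq g (this.trans inf_le_right) (this.trans hb))
  have PZ := hU.mem.nrm.trans NZ
  have c1 : ∀ g, P ≤ Nm (cj g Z) → cj g U ≤ Ce Z := fun g h => by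
    have n := hy.nm_ne (mt cj_eq_bot.1 nZ : cj g Z ≠ ⊥) (p_nil hr (p_cj g pZ))
    have a1 := nil_le (os_le r _) (fp_nil p (Nm (cj g Z)))
    have a2 := cop_le (os_le r _) (fp_cop p (Nm (cj g Z)))
    have a3 := (h.trans le_normalizer).trans ((nm_fp p _).trans (nm_os r _))
    refine cent_of_card hr (p_cj g hU.grp) cZ ((le_os_nil hr (fp_nil p _) (hy.mem_le_fp n (hy.conj P hP g)
      (cj_nm g Z ▸ cj_mono g PZ) (hU.mem.conj g) (cj_nm g Z ▸ cj_mono g (UZ.trans (ce_le_nm Z))))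
      (p_cj g hU.grp)).trans ((le_nm cP a1 a2 a3 ((uniq hy h2 hr hP hU hb (mem_comm cP a1 a2 a3)
        ((os_p hr _).to_le (comm_le_left a3))).trans le_normalizer) CU).trans NZ))
  have c : ∀ g, P ≤ Nm (cj g Z) → cj g P ≤ Nm Z → cj g Z = Z := fun g h h' => by
    have a : cj g Z ≤ Ce U := ce_symm (cj_ce g Z ▸ le_cj (c1 g⁻¹ (cj_nm g⁻¹ Z ▸ le_cj' h')))
    refine uq g a (by_contra fun n => n ((le_inf ?_ a).trans hb))
    rw [← eq_of_card hr ((card_cj g Z).trans cZ) (comm_le_left h) (mt comm_bot.1 n)]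
    exact uniq hy h2 hr hP hU hb (mem_comm cP (p_nil hr (p_cj g pZ)) (cop_cj g (cop_le ZU hU.mem.cop)) h)
      ((p_cj g pZ).to_le (comm_le_left h))
  have d : ∀ T : Subgroup G, IsPGroup p T → P ≤ T → T ≤ Nm Z := fun T hT l =>
    climb hy.pr hT fun n _ k => cj_eq_iff.1 (c n
      ((le_inf l PZ).trans ((cj_eq_iff.2 k).ge.trans (cj_nm n Z ▸ cj_mono n inf_le_right)))
      ((cj_mono n (le_inf l PZ)).trans ((cj_eq_iff.2 k).le.trans inf_le_right)))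
  obtain ⟨g, rfl⟩ := hy.trans P hP P₂ hP₂
  have e := c (b⁻¹ * g) (by
    rw [cj_mul, ← cj_nm, ← cj_nm]
    exact (le_cj' s1).trans (cj_mono _ (le_cj (d _ (p_cj _ hS) (le_cj' s2))))) (by
    rw [cj_mul]
    exact (cj_mono _ s2).trans (d _ (p_cj _ hS) (le_cj' s1)))
  rw [cj_mul, ← cj_inj (g := b), cj_cj_inv, cj_of_ce (UZ hb')] at e
  rw [← e, ← cj_ce]
  exact cj_mono g (lZ.trans hb)

end H33.F2C
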