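import Cfsg.Agent.Lib.F2C.BE1

set_option autoImplicit false
set_option linter.unusedSectionVars false

namespace H33.F2C

universe u

variable {G : Type*} [Group G] [Finite G]

variable {p : ℕ} {X : Set (Subgroup G)}

namespace BE2

theorem cj_le_sup {k : G} {Y P : Subgroup G} (hk : k ∈ Y) : cj k P ≤ Y ⊔ P :=
  cj_le_of ((le_sup_left : Y ≤ Y ⊔ P) hk) le_sup_right

theorem conj_mem {z v : G} {Y : Subgroup G} (hz : z ∈ Nm Y) (hv : v ∈ Y) : z * v * z⁻¹ ∈ Y := by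
  have := cj_mem (g := z) hv
  rwa [cj_eq_iff.2 hz] at this

theorem cj_cj_fix {z v : G} {P : Subgroup G} (hz : z ∈ Nm P) :
    cj z (cj v P) = cj (z * v * z⁻¹) P := by
  rw [cj_mul, cj_mul, cj_eq_iff.2 ((Nm P).inv_mem hz)]

/-- the key claim -/
theorem claim (hy : Hy p X) (h2 : p ≠ 2) {r s : ℕ} (hr : r.Prime) (hs : s.Prime) (hsr : s ≠ r)
    {P U V : Subgroup G} (hP : P ∈ X) (hU : Mx p r P U) (hb : U ⊓ Ce U ≤ Ce P) (hV : Mx p s P V)
    {z : G} (hz1 : z ≠ 1) (hzU : z ∈ U ⊓ Ce U)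
    (hz : ∀ b ∈ U, ∀ P₂ ∈ X, ∀ S : Subgroup G, IsPGroup p S → cj b P ≤ S → P₂ ≤ S → z ∈ Ce P₂)
    {v : G} (hv : v ∈ V) (hne : cj z (cj v P) ≠ cj v P) {b : G} (hbU : b ∈ U) :
    Kp p P (cj b P) ≤ Ce (Kp p (cj v P) (cj z (cj v P))) := by
  have hp := hy.pr
  have hzP : z ∈ Ce P := hb hzU
  have hzV : z ∈ Nm V := hy.mx_inv h2 hs hP hV (ce_le_nm P hzP)
  set P' := cj v P with hP'def
  have hP' : P' ∈ X := hy.conj P hP v
  have hV' : Mx p s P' V := by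
    have := hV.conj v
    rwa [cj_of_mem hv] at this
  have hPz : cj z P' ∈ X := hy.conj P' hP' z
  have hPzle : cj z P' ≤ V ⊔ P' := by
    rw [hP'def, sup_cj hv, cj_cj_fix (ce_le_nm P hzP)]
    exact cj_le_sup (conj_mem hzV hv)
  obtain ⟨hK'V, hK'm, -, -, hK'b⟩ := pure hp hV.mem.nil hV.mem.cop (hy.card _ hP') (hy.card _ hPz)
    hV'.mem.nrm hPzle
  set K' := Kp p P' (cj z P') with hK'def
  have hK'ne : K' ≠ ⊥ := fun h => hne (hK'b h)
  set P'' := cj b P with hP''def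
  have hP'' : P'' ∈ X := hy.conj P hP b
  obtain ⟨P₃, hP₃, S, hS, hS1, hS3, hKm, k, hk, hP'k⟩ := hy.pair hP'' hP'
  have hz3 : z ∈ Ce P₃ := hz b hbU P₃ hP₃ S hS hS1 hS3
  obtain ⟨H, hH, h3H, h'H, hzH⟩ := hy.h2 hP₃ (k := k) (t := z)
    (by rw [← hP'k]; exact kp_le P₃ P' hk) (ce_le_nm _ hz3)
  rw [← hP'k] at h'H
  have hKF : Kp p P₃ P' ≤ Fp p H :=
    hy.mem_le_fp hH hP₃ h3H hKm ((kp_le _ _).trans (sup_le h3H h'H))
  have hK'F : K' ≤ Fp p H :=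
    hy.mem_le_fp hH hP' h'H hK'm ((kp_le _ _).trans (sup_le h'H (cj_le_of hzH h'H)))
  have hFn := fp_nil p H
  have hFc := fp_cop p H
  have hHF : H ≤ Nm (Fp p H) := Subgroup.le_normalizer.trans (nm_fp p H)
  set Fs := Os s (Fp p H) with hFs
  set Fq := Oq s (Fp p H) with hFq
  have hHs : H ≤ Nm Fs := hHF.trans (nm_os s _)
  have hHq : H ≤ Nm Fq := hHF.trans (nm_oq s _)
  have hsn : Group.IsNilpotent Fs := nil_le (os_le s _) hFn
  have hqn : Group.IsNilpotent Fq := nil_le (oq_le s _) hFn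
  have hsc : Cop p Fs := cop_le (os_le s _) hFc
  have hqc : Cop p Fq := cop_le (oq_le s _) hFc
  have hK's : K' ≤ Fs := le_os_nil hs hFn hK'F (hV.grp.to_le hK'V)
  have hcomV : ⁅Fs, P'⁆ ≤ V := by
    have hm : Mem p P' ⁅Fs, P'⁆ := mem_comm (hy.card _ hP') hsn hsc (h'H.trans hHs)
    refine hy.mx_ti h2 hs hP' hV' hm ((os_p hs _).to_le (comm_le_left (h'H.trans hHs))) ?_
    intro h
    apply hK'ne
    rw [eq_bot_iff, ← h]
    exact le_inf (by rw [← hK'm.com]; exact Subgroup.commutator_mono hK's le_rfl) hK'V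
  obtain ⟨ks, hks, kq, hkq, hkk, -, -, -⟩ := split hs hFn (hKF hk)
  set Q := cj kq P₃ with hQdef
  have hQ : Q ∈ X := hy.conj _ hP₃ kq
  have hQ' : Q = cj ks⁻¹ P' := by rw [hP'k, hkk, cj_mul, cj_inv_cj]
  have hP'Q : P' = cj ks Q := by rw [hQ', cj_cj_inv]
  have hQH : Q ≤ H := cj_le_of (fp_le p H (oq_le s _ hkq)) h3H
  obtain ⟨hA1, hA2, -, ⟨u₀, hu₀, hQu₀⟩, -⟩ := pure hp hsn hsc (hy.card _ hP') (hy.card _ hQ)
    (h'H.trans hHs) (by rw [hQ']; exact cj_le_sup (Fs.inv_mem hks))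
  have hu₀V : u₀ ∈ V := hcomV (by
    have : Kp p P' Q ≤ ⁅Fs, P'⁆ := by
      rw [← hA2.com]; exact Subgroup.commutator_mono hA1 le_rfl
    exact this hu₀)
  have hQV : Q = cj (u₀ * v) P := by rw [hQu₀, cj_mul]
  have hzQ : z ∈ Nm Q := by
    rw [← cj_eq_iff]
    have hzQ' : cj z Q ∈ X := hy.conj _ hQ z
    have e1 : cj z Q ≤ Fq ⊔ Q := by
      rw [hQdef, sup_cj hkq, cj_cj_fix (ce_le_nm _ hz3)]
      exact cj_le_sup (conj_mem (hHq hzH) hkq)
    have e2 : cj z Q ≤ Fs ⊔ Q := by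
      have e3 : Fs ⊔ Q = Fs ⊔ P' := by rw [hP'Q, sup_cj hks]
      have e4 : cj z P' ≤ Fs ⊔ P' := by
        obtain ⟨-, -, -, ⟨k', hk', e⟩, -⟩ := pure hp hV.mem.nil hV.mem.cop (hy.card _ hP')
          (hy.card _ hPz) hV'.mem.nrm hPzle
        rw [e]; exact cj_le_sup (hK's hk')
      rw [e3, hQ']
      have e5 : cj z (cj ks⁻¹ P') = cj (z * ks⁻¹ * z⁻¹) (cj z P') := by
        rw [← cj_mul z, ← cj_mul (z * ks⁻¹ * z⁻¹), inv_mul_cancel_right]
      rw [e5]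
      exact cj_le_of ((le_sup_left : Fs ≤ Fs ⊔ P') (conj_mem (hHs hzH) (Fs.inv_mem hks))) e4
    obtain ⟨a1, -, -, -, a2⟩ := pure hp hqn hqc (hy.card _ hQ) (hy.card _ hzQ') (hQH.trans hHq) e1
    obtain ⟨a3, -, -, -, -⟩ := pure hp hsn hsc (hy.card _ hQ) (hy.card _ hzQ') (hQH.trans hHs) e2
    apply a2
    rw [eq_bot_iff, ← inf_bot_of_cop (os_p hs (Fp p H)) hs (oq_cop s (Fp p H))]
    exact le_inf a3 a1
  have hzQc : z ∈ Ce Q := by
    rw [hQV] at hzQ ⊢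
    exact cent_pt hp (hy.card _ hP) hV.mem.cop hV.mem.nrm hzP hzV (V.mul_mem hu₀V hv) hzQ
  -- inside the centraliser of z
  have toM : ∀ {A : Subgroup G}, z ∈ Ce A → A ≤ Cg z := fun {A} h a ha => by
    rw [Subgroup.mem_centralizer_singleton_iff]
    exact Subgroup.mem_centralizer_iff.1 h a ha
  have hM : Cg z ≠ ⊤ := hy.cg_ne hz1
  have hPM : P ≤ Cg z := toM hzP
  have hUM : U ≤ Cg z := toM hzU.2
  have hQM : Q ≤ Cg z := toM hzQc
  have h3M : P₃ ≤ Cg z := toM hz3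
  have h''M : P'' ≤ Cg z := cj_le_of (hUM hbU) hPM
  have hF0n := fp_nil p (Cg z)
  have hF0c := fp_cop p (Cg z)
  have hMF : Cg z ≤ Nm (Fp p (Cg z)) := Subgroup.le_normalizer.trans (nm_fp p _)
  have hUF : U ≤ Fp p (Cg z) := hy.mem_le_fp hM hP hPM hU.mem hUM
  set F' := Oq r (Fp p (Cg z)) with hF'
  have hMF' : Cg z ≤ Nm F' := hMF.trans (nm_oq r _)
  have hUF' : U ≤ Ce F' := comm_nil' hr hF0n hUF (oq_le r _) hU.grp (oq_cop r _)
  obtain ⟨b1, b2, -, ⟨u, hu, hQu⟩, -⟩ := pure hp hV.mem.nil hV.mem.cop (hy.card _ hP) (hy.card _ hQ)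
    hV.mem.nrm (by rw [hQV]; exact cj_le_sup (V.mul_mem hu₀V hv))
  have huF' : u ∈ F' := by
    have h1 : Kp p P Q ≤ Fp p (Cg z) :=
      hy.mem_le_fp hM hP hPM b2 ((kp_le _ _).trans (sup_le hPM hQM))
    exact le_oq_nil hr hF0n h1 (cop_of_p hs hr hsr (hV.grp.to_le b1)) hu
  have huU : u ∈ Ce U := ce_symm hUF' huF'
  obtain ⟨c1, c2, -, ⟨w, hw, h3w⟩, -⟩ := pure hp hqn hqc (hy.card _ hQ) (hy.card _ hP₃)
    (hQH.trans hHq) (by rw [hQdef, sup_cj hkq]; exact le_sup_right)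
  set K₃ := Kp p Q P₃ with hK₃
  have hK₃F : K₃ ≤ Fp p (Cg z) := hy.mem_le_fp hM hQ hQM c2 ((kp_le _ _).trans (sup_le hQM h3M))
  obtain ⟨wr, hwr, wq, hwq, hww, hwc, -, -⟩ := split hr c2.nil hw
  have hm3 : Mem p Q (Os r K₃) := mem_os hr c2
  have hrU : Os r K₃ ≤ U := by
    have := hy.beta_uniq h2 hr hP hU hb u (Q := Os r K₃) (by rw [← hQu]; exact hm3) (os_p hr _)
    rwa [cj_of_ce huU] at this
  have hwrU : wr ∈ U := hrU hwr
  have hwqF : wq ∈ F' := le_oq_nil hr hF0n ((oq_le r _).trans hK₃F) (oq_cop r _) hwq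
  have h3eq : P₃ = P'' := by
    have e1 : P₃ ≤ Fp p (Cg z) ⊔ P'' := by
      rw [hP''def, sup_cj (hUF hbU), h3w, hQu, ← cj_mul]
      exact cj_le_sup ((Fp p (Cg z)).mul_mem (hK₃F hw) (oq_le r _ huF'))
    obtain ⟨-, -, -, -, a⟩ := pure hp hF0n hF0c (hy.card _ hP'') (hy.card _ hP₃) (h''M.trans hMF) e1
    exact a (kp_p hp hS hS1 hS3)
  have hP0 : cj wr P ∈ X := hy.conj _ hP wr
  have hcu : u * wr = wr * u := Subgroup.mem_centralizer_iff.1 (hUF' hwrU) u huF'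
  have h''eq : P'' = cj wr P := by
    have e0 : P'' = cj (wq * u) (cj wr P) := by
      rw [← h3eq, h3w, hQu, ← cj_mul, ← cj_mul, hww, hwc, mul_assoc, mul_assoc, hcu]
    have e1 : P'' ≤ F' ⊔ cj wr P := by rw [e0]; exact cj_le_sup (F'.mul_mem hwqF huF')
    have e2 : P'' ≤ U ⊔ cj wr P := by rw [sup_cj hwrU]; exact cj_le_sup hbU
    have hn0 : cj wr P ≤ Nm U := by
      have := (hU.mem.conj wr).nrm
      rwa [cj_of_mem hwrU] at this
    obtain ⟨a1, -, -, -, a2⟩ := pure hp (nil_le (oq_le r _) hF0n) (cop_le (oq_le r _) hF0c)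
      (hy.card _ hP0) (hy.card _ hP'') ((cj_le_of (hUM hwrU) hPM).trans hMF') e1
    obtain ⟨a3, -, -, -, -⟩ := pure hp hU.mem.nil hU.mem.cop (hy.card _ hP0) (hy.card _ hP'') hn0 e2
    apply a2
    rw [eq_bot_iff, ← inf_bot_of_cop hU.grp hr (oq_cop r (Fp p (Cg z)))]
    exact le_inf a3 a1
  have hKU : Kp p P P'' ≤ U :=
    (pure hp hU.mem.nil hU.mem.cop (hy.card _ hP) (hy.card _ hP'') hU.mem.nrm (cj_le_sup hbU)).1
  have hfix : cj u (Kp p P P'') = Kp p P P'' :=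
    cj_of_ce (Subgroup.centralizer_le hKU huU)
  have hKq : Kp p P P'' ≤ Fq := by
    rw [← hfix, cj_kp, ← hQu, h''eq, ← cj_mul, hcu, cj_mul, ← hQu]
    have := (pure hp hm3.nil hm3.cop (hy.card _ hQ) (hy.card _ (hy.conj _ hQ wr)) hm3.nrm
      (cj_le_sup hwr)).1
    exact this.trans ((os_le r _).trans c1)
  have hsq : Fs ≤ Ce Fq := comm_nil' hs hFn (os_le s _) (oq_le s _) (os_p hs _) (oq_cop s _)
  exact hKq.trans ((ce_symm hsq).trans (Subgroup.centralizer_le hK's))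

end BE2

theorem Hy.beta (hy : Hy p X) (h2 : p ≠ 2) {r : ℕ} (hr : r.Prime) {P U : Subgroup G} (hP : P ∈ X)
    (hU : Mx p r P U) (hb : U ⊓ Ce U ≤ Ce P) : MC p P := by
  by_contra hn
  have hp := hy.pr
  obtain ⟨z, hz1, hzr, hzU, hz⟩ := hy.beta_z h2 hr hP hU hb hn
  apply hn
  refine mc_of_mx (M := Nm U) (hy.nm_ne hU.ne hU.mem.nil) hU.mem.nrm ?_
  intro s hs V hV
  by_cases hsr : s = r
  · subst hsr
    have := hy.beta_uniq h2 hr hP hU hb 1 (Q := V) (by rw [cj_one]; exact hV.mem) hV.grp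
    rw [cj_one] at this
    exact this.trans Subgroup.le_normalizer
  have hzP : z ∈ Ce P := hb hzU
  have hzV : z ∈ Nm V := hy.mx_inv h2 hs hP hV (ce_le_nm P hzP)
  have toM : ∀ {A : Subgroup G}, z ∈ Ce A → A ≤ Cg z := fun {A} h a ha => by
    rw [Subgroup.mem_centralizer_singleton_iff]
    exact Subgroup.mem_centralizer_iff.1 h a ha
  have hVM : V ≤ Cg z := by
    refine mem_gen hV.mem fun v hv => ?_
    have hfix : cj z (cj v P) = cj v P := by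
      by_contra hne
      have hcl : U ≤ Ce (Kp p (cj v P) (cj z (cj v P))) :=
        mem_gen hU.mem fun b hbU => BE2.claim hy h2 hr hs hsr hP hU hb hV hz1 hzU hz hv hne hbU
      have hP' : cj v P ∈ X := hy.conj P hP v
      have hn' : cj v P ≤ Nm V := by
        have := (hV.mem.conj v).nrm
        rwa [cj_of_mem hv] at this
      have hle : cj z (cj v P) ≤ V ⊔ cj v P := by
        rw [sup_cj hv, BE2.cj_cj_fix (ce_le_nm P hzP)]
        exact BE2.cj_le_sup (BE2.conj_mem hzV hv)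
      obtain ⟨a1, -, -, ⟨k, hk, e⟩, -⟩ := pure hp hV.mem.nil hV.mem.cop (hy.card _ hP')
        (hy.card _ (hy.conj _ hP' z)) hn' hle
      have hc : Commute k z := Subgroup.mem_centralizer_iff.1 (hcl hzU.1) k hk
      have ht : k⁻¹ * z ∈ Nm (cj v P) := by rw [← cj_eq_iff, cj_mul, e, cj_inv_cj]
      have ht2 : k⁻¹ ^ r ∈ Nm (cj v P) := by
        have := (Nm (cj v P)).pow_mem ht r
        rwa [(hc.inv_left).mul_pow, hzr, mul_one] at this
      obtain ⟨j, hj⟩ := hV.grp ⟨k⁻¹, V.inv_mem (a1 hk)⟩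
      have hj' : k⁻¹ ^ s ^ j = 1 := congrArg Subtype.val hj
      have hco : (orderOf k⁻¹).Coprime r :=
        Nat.Coprime.coprime_dvd_left (orderOf_dvd_of_pow_eq_one hj')
          (Nat.Coprime.pow_left j ((Nat.coprime_primes hs hr).2 hsr))
      obtain ⟨m, hm⟩ := exists_pow_eq_self_of_coprime hco.symm
      have hk' : k⁻¹ ∈ Nm (cj v P) := by
        rw [← hm]; exact (Nm (cj v P)).pow_mem ht2 m
      apply hne
      rw [e]
      exact cj_eq_iff.2 (by simpa using (Nm (cj v P)).inv_mem hk')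
    have hc := cent_pt hp (hy.card _ hP) hV.mem.cop hV.mem.nrm hzP hzV hv (cj_eq_iff.1 hfix)
    exact (kp_le _ _).trans (sup_le (toM hzP) (toM hc))
  have := hy.mem_comm2 hr (hy.cg_ne hz1) hP (toM hzP) hP (toM hzP) hU.mem hV.mem (toM hzU.2) hVM
    hU.grp (cop_of_p hs hr hsr hV.grp)
  exact (ce_symm this).trans (ce_le_nm U)

end H33.F2C
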