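import Cfsg.Agent.Lib.F2C.GD
import Cfsg.Agent.S3816
import Cfsg.Agent.S0199

set_option autoImplicit false

namespace H33.F2C

universe u

variable {G : Type*} [Group G] [Finite G]

variable {p : ℕ} {X : Set (Subgroup G)}

open Subgroup

theorem KEY.main (hy : Hy p X) {r : ℕ} (hr : r.Prime) {P Q : Subgroup G} (hP : P ∈ X)
    (hQ : Mem p P Q) (hr' : IsPGroup r Q) {h z : G} (hh : h ∈ Q) (hz : z ∈ Kp p P (cj h P))
    (hc : z ∈ Ce P) : z ∈ Os r (Ce P) := by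
  have := Fact.mk hr
  obtain ⟨KQ, mK, -, ⟨k, hk, e⟩, -⟩ := pure hy.pr hQ.nil hQ.cop (hy.card P hP)
    ((card_cj h P).trans (hy.card P hP)) hQ.nrm (le_sup_right.trans (sup_cj hh).le)
  have zp : IsPGroup r (zpowers z) := hr'.to_le (zpowers_le.2 (KQ hz))
  obtain ⟨N, nN, pN, hN⟩ := Cfsg.Agent.S0199.result (p := r) (zpowers (⟨z, hc⟩ : Ce P))
    (IsPGroup.to_le zp.comap_subtype (zpowers_le.2 (mem_zpowers z))) fun t => by
      obtain ⟨H, H1, H2, H3, H4⟩ := hy.h2 hP (e ▸ kp_le _ _ hk) (ce_le_nm P t.2)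
      have m : z ∈ Os r (Fp p H) := le_os_nil hr (fp_nil p H) (zpowers_le.2
        (hy.mem_le_fp H1 hP H2 mK ((kp_le _ _).trans (sup_le H2 (e ▸ H3))) hz)) zp (mem_zpowers z)
      refine IsPGroup.to_le (os_p hr (Fp p H)).comap_subtype (sup_le (zpowers_le.2 m) ?_)
      rw [MonoidHom.map_zpowers]
      exact zpowers_le.2 ((mem_normalizer_iff.1 (nm_os r _ (nm_fp p H (le_normalizer H4))) z).1 m)
  refine le_os (R := N.map (Ce P).subtype) (map_subtype_le N) (fun t ht => ?_) (pN.map _)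
    ⟨_, hN (mem_zpowers _), rfl⟩
  refine mem_normalizer_fintype ?_
  rintro _ ⟨n, hn, rfl⟩
  exact ⟨_, nN.conj_mem n hn ⟨t, ht⟩, rfl⟩

theorem Hy.key (hy : Hy p X) (h2 : p ≠ 2) {r : ℕ} (hr : r.Prime) {P Q : Subgroup G} (hP : P ∈ X)
    (hQ : Mem p P Q) (hr' : IsPGroup r Q) : Q ⊓ Ce P ≤ Os r (Ce P) := by
  by_cases Q0 : Q = ⊥
  · rw [Q0, bot_inf_eq]; exact bot_le
  have := Fact.mk hy.pr
  have := hQ.nil
  obtain ⟨⟨a, ha⟩, a1⟩ := ne_bot_iff_exists_ne_one.1 (hy.pt_ne hP)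
  have e : zpowers a = P := eq_of_card hy.pr (hy.card P hP) (zpowers_le.2 ha)
    (zpowers_ne_bot.2 fun e => a1 (Subtype.ext e))
  let α : MulAut Q := Q.normalizerMonoidHom ⟨a, hQ.nrm ha⟩
  have αi : ∀ (i : ℕ) (h : Q), ((α ^ i) h : G) = a ^ i * h * (a ^ i)⁻¹ := fun i h => by
    rw [← map_pow]; rfl
  have fx : ∀ h : Q, h ∈ (α : Q →* Q).eqLocus (MonoidHom.id Q) ↔ (h : G) ∈ Ce P := fun h => by
    rw [← e, ← cg_eq_ce, mem_centralizer_singleton_iff, eq_comm, ← mul_inv_eq_iff_eq_mul]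
    exact Subtype.ext_iff
  have ho : orderOf α = p := orderOf_eq_prime (MulEquiv.ext fun h => Subtype.ext (by
    have : a ^ p = 1 := by
      rw [← hy.card P hP]; exact congrArg Subtype.val (pow_card_eq_one' (x := (⟨a, ha⟩ : P)))
    rw [αi, this, one_mul, inv_one, mul_one]; rfl))
    fun e1 => Q0 (mem_bot_of_ce hQ fun h hh => (fx ⟨h, hh⟩).1 (MulEquiv.congr_fun e1 _))
  have k := Cfsg.Agent.S3816.result h2 hQ.cop α ho
  rintro z ⟨zQ, zc⟩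
  have m : (⟨z, zQ⟩ : Q) ∈ closure {c : Q | ∃ h : Q, ∃ i : ℕ, c = h⁻¹ * (α ^ i) h} := by
    have : ⁅Q, P⁆ ≤ (closure {c : Q | ∃ h : Q, ∃ i : ℕ, c = h⁻¹ * (α ^ i) h}).map Q.subtype := by
      refine commutator_le.2 fun q hq c hc => ?_
      obtain ⟨i, rfl⟩ := mem_powers_iff_mem_zpowers.2 (e.ge hc)
      exact ⟨_, subset_closure ⟨⟨q, hq⟩⁻¹, i, rfl⟩, by simp [αi, commutatorElement_def, mul_assoc]⟩
    obtain ⟨w, hw, e'⟩ := this (hQ.com.ge zQ)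
    exact (Subtype.ext e' : w = ⟨z, zQ⟩) ▸ hw
  refine (iSup_le fun h w hw => ?_ : _ ≤ (Os r (Ce P)).comap Q.subtype) (k.le ⟨m, (fx _).2 zc⟩)
  refine KEY.main hy hr hP hQ hr' (inv_mem h.2) ?_ ((fx w).1 hw.2)
  refine ((closure_le ((Kp p P (cj (h : G)⁻¹ P)).comap Q.subtype)).2 ?_) hw.1
  rintro _ ⟨i, rfl⟩
  refine subset_closure ⟨?_, ?_⟩
  · have : ((h⁻¹ * (α ^ i) h : Q) : G) = (h : G)⁻¹ * a ^ i * (h : G)⁻¹⁻¹ * (a ^ i)⁻¹ := by
      simp [αi, mul_assoc]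
    rw [coe_subtype, this]
    exact mul_mem (mem_sup_right (cj_mem (pow_mem ha i))) (mem_sup_left (inv_mem (pow_mem ha i)))
  · rw [coe_subtype, orderOf_coe]
    exact Nat.Coprime.coprime_dvd_left (orderOf_dvd_natCard _) hQ.cop

end H33.F2C
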