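import Cfsg.Agent.Lib.F2C.KEY

set_option autoImplicit false
set_option linter.unusedSectionVars false

namespace H33.F2C

universe u

variable {G : Type*} [Group G] [Finite G]

variable {p : ℕ} {X : Set (Subgroup G)}

open Subgroup

namespace TI

/-- the `P`-invariant `r`-groups whose fixed points lie in `O_r(C(P))` -/
def E (r : ℕ) (P : Subgroup G) : Set (Subgroup G) :=
  {K | IsPGroup r K ∧ P ≤ Nm K ∧ K ⊓ Ce P ≤ Os r (Ce P)}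

variable (hy : Hy p X) (h2 : p ≠ 2) {r : ℕ} (hr : r.Prime) {P : Subgroup G} (hP : P ∈ X)
include hy h2 hr hP

theorem supE {R O : Subgroup G} (hR : Mem p P R) (hR' : IsPGroup r R) (h1 : O ≤ Os r (Ce P))
    (h3 : O ≤ Nm R) (h4 : P ≤ Nm O) : R ⊔ O ∈ E r P := by
  refine ⟨psup h3 hR' ((os_p hr _).to_le h1), fun g hg => nm_sup (hR.nrm hg) (h4 hg), ?_⟩
  rintro g ⟨hg, hc⟩
  obtain ⟨w, hw, o, ho, rfl⟩ := (mem_sup_nm h3).1 hg
  exact mul_mem (hy.key h2 hr hP hR hR' ⟨hw, (mul_mem_cancel_right (os_le r _ (h1 ho))).1 hc⟩) (h1 ho)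

theorem memc (rp : r ≠ p) {K : Subgroup G} (h1 : IsPGroup r K) (h3 : P ≤ Nm K) : Mem p P ⁅K, P⁆ :=
  mem_comm (hy.card P hP) (p_nil hr h1) (cop_of_p hr hy.pr rp h1) h3

theorem pO : P ≤ Nm (Os r (Ce P)) := (hy.pt_ce hP).trans (le_normalizer.trans (nm_os r _))

theorem ti (rp : r ≠ p) {D₁ D₂ : Subgroup G} (h1 : Maximal (· ∈ E r P) D₁) (h3 : Maximal (· ∈ E r P) D₂)
    (h : D₁ ⊓ D₂ ≠ ⊥) : D₁ = D₂ := by
  obtain ⟨c, hc, e⟩ := ticonj hr (E r P) ⊥ (fun K hK => hK.1)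
    (fun K hK L hL => ⟨hK.1.to_le inf_le_left, fun g hg => nm_inf (hK.2.1 hg) (hL.2.1 hg),
      (inf_le_inf_right _ inf_le_left).trans hK.2.2⟩)
    (fun K hK L hL => ⟨hK.1.to_le inf_le_left, fun g hg => nm_inf (hK.2.1 hg) (nm_nm (hL.2.1 hg)),
      (inf_le_inf_right _ inf_le_left).trans hK.2.2⟩)
    (fun c hc K hK => by rwa [Subgroup.mem_bot.1 hc, cj_one]) (fun L hL L0 K₁ m1 K₂ m2 n1 n2 => by
      have hM := hy.nm_ne L0 (p_nil hr hL.1)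
      have nY : Nm L ≤ Nm (Os r (Fp p (Nm L))) := le_normalizer.trans ((nm_fp p _).trans (nm_os r _))
      have k : ∀ K ∈ E r P, K ≤ Nm L → K ≤ ⁅Os r (Fp p (Nm L)), P⁆ ⊔ (Os r (Ce P) ⊓ Nm L) :=
        fun K m n y hk => by
          have cp := cop_of_p hr hy.pr rp m.1
          obtain ⟨u, hu, c, hc, rfl⟩ := dec (p_nil hr m.1) m.2.1 (by rw [hy.card P hP]; exact cp.symm) hk
          refine mul_mem (mem_sup_left ?_) (mem_sup_right ⟨m.2.2 hc, n hc.1⟩)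
          exact commutator_mono (le_os_nil hr (fp_nil p _) (hy.comm_le hM hP hL.2.1 n m.2.1 cp)
            (m.1.to_le (comm_le_left m.2.1))) le_rfl ((memc hy h2 hr hP rp m.1 m.2.1).com.ge hu)
      exact ⟨1, one_mem _, _, supE hy h2 hr hP (memc hy h2 hr hP rp (os_p hr _) (hL.2.1.trans nY))
        ((os_p hr _).to_le (comm_le_left (hL.2.1.trans nY))) inf_le_left
        (fun g hg => nm_comm (nY hg.2) (ce_le_nm P (os_le r _ hg.1)))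
        (fun g hg => nm_inf (pO hy h2 hr hP hg) (nm_nm (hL.2.1 hg))),
        (cj_one K₁).le.trans (k K₁ m1 n1), k K₂ m2 n2⟩) h1 h3 h
  rwa [Subgroup.mem_bot.1 hc, cj_one] at e

theorem le_of {U Q K₁ K₂ : Subgroup G} (hU : Mx p r P U) (hQ : Mem p P Q) (m1 : K₁ ∈ E r P)
    (m2 : K₂ ∈ E r P) (l1 : U ≤ K₁) (l2 : Q ≤ K₂) (h : K₁ ⊓ K₂ ≠ ⊥) : Q ≤ U := by
  have rp := mem_ne_p hy.pr hU.mem hU.grp hU.ne
  obtain ⟨D₁, a1, b1⟩ := ex_max _ m1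
  obtain ⟨D₂, a2, b2⟩ := ex_max _ m2
  obtain rfl := ti hy h2 hr hP rp b1 b2 fun e => h (eq_bot_iff.2 (e ▸ inf_le_inf a1 a2))
  rw [← hU.max _ (memc hy h2 hr hP rp b1.1.1 b1.1.2.1) (b1.1.1.to_le (comm_le_left b1.1.2.1))
    (hU.mem.com.ge.trans (commutator_mono (l1.trans a1) le_rfl))]
  exact hQ.com.ge.trans (commutator_mono (l2.trans a2) le_rfl)

end TI

theorem Hy.mx_ti (hy : Hy p X) (h2 : p ≠ 2) {r : ℕ} (hr : r.Prime) {P U Q : Subgroup G} (hP : P ∈ X)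
    (hU : Mx p r P U) (hQ : Mem p P Q) (hr' : IsPGroup r Q) (h : Q ⊓ U ≠ ⊥) : Q ≤ U :=
  TI.le_of hy h2 hr hP hU hQ ⟨hU.grp, hU.mem.nrm, hy.key h2 hr hP hU.mem hU.grp⟩
    ⟨hr', hQ.nrm, hy.key h2 hr hP hQ hr'⟩ le_rfl le_rfl (inf_comm Q U ▸ h)

theorem Hy.mx_inv (hy : Hy p X) (h2 : p ≠ 2) {r : ℕ} (hr : r.Prime) {P U : Subgroup G} (hP : P ∈ X)
    (hU : Mx p r P U) : Nm P ≤ Nm U := fun t ht => by
  have rp := mem_ne_p hy.pr hU.mem hU.grp hU.ne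
  have tP := cj_eq_iff.2 ht
  obtain ⟨a, ha, a1⟩ := ex_move hy.pr (hy.card P hP) hU.mem hU.ne
  obtain ⟨KU, mK, -, ⟨k, hk, e⟩, K0⟩ := pure hy.pr hU.mem.nil hU.mem.cop (hy.card P hP)
    ((card_cj a P).trans (hy.card P hP)) hU.mem.nrm (le_sup_right.trans (sup_cj ha).le)
  obtain ⟨H, H1, H2, H3, H4⟩ := hy.h2 hP (e ▸ kp_le _ _ hk) ht
  have KH : Kp p P (cj a P) ≤ H := (kp_le _ _).trans (sup_le H2 (e ▸ H3))
  have nY : P ≤ Nm (Os r (Fp p H)) := H2.trans (le_normalizer.trans ((nm_fp p _).trans (nm_os r _)))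
  have mR := TI.memc hy h2 hr hP rp (os_p hr _) nY
  have pR := (os_p hr _).to_le (comm_le_left nY)
  have k : ∀ K, Mem p P K → IsPGroup r K → K ≤ H → K ≤ ⁅Os r (Fp p H), P⁆ := fun K m pK l =>
    m.com.ge.trans (commutator_mono (le_os_nil hr (fp_nil p H) (hy.mem_le_fp H1 hP H2 m l) pK) le_rfl)
  have pK := hU.grp.to_le KU
  have hU' : Mx p r P (cj t U) := by have := hU.conj t; rwa [tP] at this
  have mK' : Mem p P (cj t (Kp p P (cj a P))) := by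
    have := mK.conj t; rwa [tP] at this
  have l1 := k _ mK pK KH
  have r1 := hy.mx_ti h2 hr hP hU mR pR fun e0 => a1 (K0 (eq_bot_iff.2 (e0 ▸ le_inf l1 KU)))
  have r2 := hy.mx_ti h2 hr hP hU' mR pR fun e0 => a1 (K0 (cj_eq_bot.1 (eq_bot_iff.2
    (e0 ▸ le_inf (k _ mK' (p_cj t pK) (cj_le_of H4 KH)) (cj_mono t KU)))))
  exact cj_eq_iff.1 (eq_of_le_of_card_ge (hy.mx_ti h2 hr hP hU hU'.mem hU'.grp fun e0 =>
    a1 (K0 (eq_bot_iff.2 (e0 ▸ l1.trans (le_inf r2 r1))))) (card_cj t U).ge)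

theorem Hy.mx_uniq (hy : Hy p X) (h2 : p ≠ 2) {r : ℕ} (hr : r.Prime) {P U Q : Subgroup G} (hP : P ∈ X)
    (hU : Mx p r P U) (hO : Os r (Ce P) ≠ ⊥) (hQ : Mem p P Q) (hr' : IsPGroup r Q) : Q ≤ U := by
  by_cases Q0 : Q = ⊥
  · exact Q0 ▸ bot_le
  obtain ⟨V, hV, l⟩ := mx_ex hQ hr' Q0
  have k : ∀ {U}, Mx p r P U → U ⊔ Os r (Ce P) ∈ TI.E r P := fun hU =>
    TI.supE hy h2 hr hP hU.mem hU.grp le_rfl
      ((os_le r _).trans ((ce_le_nm P).trans (hy.mx_inv h2 hr hP hU))) (TI.pO hy h2 hr hP)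
  exact TI.le_of hy h2 hr hP hU hQ (k hU) (k hV) le_sup_left (l.trans le_sup_left)
    fun e => hO (eq_bot_iff.2 (e ▸ le_inf le_sup_right le_sup_right))

end H33.F2C
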